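/-
P26, part A: a simple group with abelian Sylow 2-subgroups has an element of prime order with a
centralizer of odd order.
-/
import Cfsg.Agent.P7.Final
import Cfsg.Agent.P7.L2Main
import Cfsg.Agent.FT.Final

set_option autoImplicit false
set_option linter.unusedSectionVars false

namespace Cfsg.Agent.P26

open Subgroup Cfsg Cfsg.Agent Cfsg.Agent.FT Cfsg.Agent.P7

universe u

variable {G : Type u} [Group G] [Finite G]

theorem exists_invol {H : Subgroup G} (h : ¬ Odd 𝐨(H)) : ∃ t ∈ H, orderOf t = 2 :=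
  exists_mem_orderOf_eq_prime Nat.prime_two (Nat.not_odd_iff_even.1 h).two_dvd

theorem jr_odd {t : G} {L : Subgroup G} {q r : ℕ} (h : JR t L q) (hr : r.Prime)
    (h1 : r ∣ Nat.card G) (h2 : ¬ r ∣ q * (q - 1) * (q + 1)) :
    ∃ y : G, (orderOf y).Prime ∧ Odd 𝐨(𝐂[y]) := by
  obtain ⟨y, -, hy⟩ := exists_mem_orderOf_eq_prime hr (H := (⊤ : Subgroup G)) (by rwa [card_top])
  refine ⟨y, hy ▸ hr, by_contra fun e => h2 ?_⟩
  obtain ⟨a, ha, a2⟩ := exists_invol e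
  obtain ⟨g, rfl⟩ := isConj_iff.1 (h.conj a a2)
  obtain ⟨F, _, π, hπ, hq⟩ := h.l2.cov
  have h3 := orderOf_dvd_card_of_mem (mem_cent1_comm.1 ha)
  rw [cent1_conj, card_conj, h.exact, hy] at h3
  have h4 := h3.trans (H1.card_sup_dvd (zpowers_le.2 (h.normal.2 (self_mem_cent1 t))))
  rwa [Nat.card_zpowers, h.inv, hπ.card_L, hq] at h4

theorem odd_cent (hs : IsSimpleGroup G) (na : ¬ IsMulCommutative G)
    (ab : ∀ P : Subgroup G, IsPGroup 2 P → IsMulCommutative P) :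
    ∃ y : G, (orderOf y).Prime ∧ Odd 𝐨(𝐂[y]) := by
  have eac : L.EAC G → ∃ y : G, (orderOf y).Prime ∧ Odd 𝐨(𝐂[y]) := fun h => by
    obtain ⟨r, hr, hd, r2⟩ : ∃ r : ℕ, r.Prime ∧ r ∣ 𝐨((⊤ : Subgroup G)) ∧ r ≠ 2 := by
      by_contra! c
      exact na ⟨⟨fun a b => mem_cent.1 (isMulComm_iff_le_cent.1
        (ab ⊤ ((isPi_singleton_iff Nat.prime_two).1 c)) (mem_top b)) a (mem_top a)⟩⟩
    obtain ⟨y, -, hy⟩ := exists_mem_orderOf_eq_prime hr hd
    refine ⟨y, hy ▸ hr, by_contra fun e => r2 ?_⟩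
    obtain ⟨a, ha, a2⟩ := exists_invol e
    have := h a y (by rintro rfl; simp at a2) (by rw [← pow_two, ← a2, pow_orderOf_eq_one])
      (mem_cent1_iff_commute.1 ha).symm
    exact (Nat.prime_dvd_prime_iff_eq hr Nat.prime_two).1
      (hy ▸ orderOf_dvd_of_pow_eq_one (by rwa [pow_two]))
  rcases walterAll hs na ab with h | ⟨q, h⟩ | h | ⟨t, L, h, hc⟩ | ⟨t, L, U, q, h⟩
  · exact eac h
  · obtain ⟨F, _, π, hπ, hq⟩ := h.cov
    obtain ⟨k, l, e⟩ := exists_ep h.mod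
    obtain ⟨r, hr, hd⟩ := Nat.exists_prime_and_dvd (n := q) (by have := h.five; omega)
    obtain ⟨y, h1, hy⟩ := exists_mem_orderOf_eq_prime hr (H := PU π) (by rwa [hπ.card_PU, hq])
    refine ⟨y, hy ▸ hr, ?_⟩
    have := hπ.centP h1 (by rintro rfl; rw [orderOf_one] at hy; exact hr.one_lt.ne hy)
    rw [top_inf_eq] at this
    rw [this, hπ.card_PU, hq]
    exact e.oddq
  · exact eac h.1
  · exact jr_odd (r := 7) h (by norm_num) (by rw [hc]; norm_num) (by norm_num)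
  obtain ⟨n, hn⟩ := h.pow
  have big := h.big
  obtain ⟨s, rfl⟩ : ∃ s, q = s + 1 := ⟨q - 1, by omega⟩
  obtain ⟨r, hr, hd⟩ := Nat.exists_prime_and_dvd (n := (s + 1) * s + 1) (by nlinarith)
  refine jr_odd h.toJR hr ?_ fun e => ?_
  · rw [h.card, show (s + 1) ^ 3 + 1 = ((s + 1) * s + 1) * (s + 2) by ring]
    exact ((hd.mul_right _).mul_left _).mul_right _
  rw [Nat.add_sub_cancel] at e
  rcases (hr.dvd_mul.1 e) with e | e
  · exact hr.one_lt.ne' (Nat.dvd_one.1 ((Nat.dvd_add_right e).1 hd))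
  · have h3 : r ∣ 3 := by
      obtain ⟨s, rfl⟩ : ∃ s', s = s' + 1 := ⟨s - 1, by omega⟩
      rw [show (s + 1 + 1) * (s + 1) + 1 = (s + 1 + 1 + 1) * s + 3 by ring] at hd
      exact (Nat.dvd_add_right (e.mul_right _)).1 hd
    obtain rfl := (Nat.prime_dvd_prime_iff_eq hr Nat.prime_three).1 h3
    have : 3 ∣ s + 1 := hn ▸ dvd_pow_self 3 (by rintro rfl; omega)
    omega

end Cfsg.Agent.P26
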