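/-
P26, part B: a solvability criterion for groups with abelian Sylow 2-subgroups.
-/
import Cfsg.Agent.P26.A
import Cfsg.Agent.H9.ClassSize
import Cfsg.Agent.H8.CentAux
import Cfsg.Agent.H5.Count

set_option autoImplicit false
set_option linter.unusedSectionVars false

namespace Cfsg.Agent.P26

open Subgroup Cfsg Cfsg.Agent Cfsg.Agent.FT

universe u

variable {G : Type u} [Group G] [Finite G]

/-- Elements of odd prime power order. -/
def OP (y : G) : Prop := ∃ r k : ℕ, r.Prime ∧ r ≠ 2 ∧ orderOf y = r ^ k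

/-- The class sizes of odd primary elements have small 2-part. -/
def PP (H : Subgroup G) : Prop := ∀ T, IsSyl 2 T H → ∀ d ∈ H ⊓ 𝐍(T), Odd (orderOf d) →
  d ∉ 𝐂(T) → ∀ y ∈ H, OP y → ¬ 𝐂[d].relIndex T ∣ 𝐂[y].relIndex H

/-- Abelian Sylow 2-subgroups. -/
def Ab (G : Type u) [Group G] : Prop := ∀ P : Subgroup G, IsPGroup 2 P → IsMulCommutative P

theorem mem_syl {p k : ℕ} (hp : p.Prime) {T H : Subgroup G} (hT : IsSyl p T H) {a : G}
    (h1 : a ∈ H) (h2 : a ∈ 𝐍(T)) (h3 : orderOf a = p ^ k) : a ∈ T :=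
  zpowers_le.1 (hT.le_of_norm hp (H8.isPGroup_zpowers_of_orderOf h3) (zpowers_le.2 h1)
    (zpowers_le.2 h2))

theorem cop_two {T : Subgroup G} (hT : IsPGroup 2 T) {n : ℕ} (h : Odd n) : n.Coprime 𝐨(T) := by
  obtain ⟨k, hk⟩ := exists_card_eq_pow Nat.prime_two hT
  rw [hk]
  exact (Nat.coprime_two_right.2 h).pow_right k

theorem relIndex_dvd_of_normal {N H : Subgroup G} (hN : N ⊲ H) (C : Subgroup G) :
    C.relIndex N ∣ C.relIndex H := by
  have := H1.normal_subgroupOf_of_le hN.2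
  have h := H9.relIndex_dvd_index_of_normal_right (C.subgroupOf H) (N.subgroupOf H)
  rwa [relIndex_subgroupOf hN.1] at h

theorem mem_of_cop {K X : Subgroup G} (h : K ⊲ X) {y : G} (hy : y ∈ X)
    (hc : (orderOf y).Coprime (K.relIndex X)) : y ∈ K := by
  have := H1.normal_subgroupOf_of_le h.2
  exact H8.mem_of_pow_mem_of_coprime hc (pow_index_mem (H := K.subgroupOf X) ⟨y, hy⟩)

theorem PP.of_normal (ab : Ab G) {N H : Subgroup G} (hN : N ⊲ H) (h : PP H) : PP N := by
  intro T1 hT1 d hd od dc y hy oy e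
  obtain ⟨T, hT, le⟩ := exists_isSyl_ge Nat.prime_two hT1.pgrp (hT1.le.trans hN.1)
  have tc : T ≤ 𝐂(T) := isMulComm_iff_le_cent.1 (ab T hT.pgrp)
  have e1 : T ⊓ N = T1 := hT1.eq_of_le Nat.prime_two (le_inf le hT1.le) inf_le_right
    hT.pgrp.to_inf_left
  have l : N ⊔ T ≤ H := sup_le hN.1 hT.le
  have n1 : (N ⊔ T) ⊓ 𝐍(T1) ≤ 𝐍((N ⊔ T) ⊓ 𝐂(T1)) := H1.le_normalizer_inf
    (inf_le_left.trans (le_norm_self _)) (H1.le_normalizer_centralizer inf_le_right)
  have fr := (hT.of_le (le_inf le_sup_right (tc.trans (cent_anti le)))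
    (inf_le_left.trans l)).frattini Nat.prime_two ⟨inf_le_inf_left _ (cent_le_norm _), n1⟩
  obtain ⟨c, hc, n, hn, rfl⟩ := (mem_sup_of_norm (inf_le_left.trans n1)).1
    (fr.ge ⟨mem_sup_left hd.1, hd.2⟩)
  obtain ⟨a, b, ha, hb, rfl, -, ⟨k, hk⟩, ob⟩ := H8.exists_pPart_pPrimePart Nat.prime_two n
  replace ha := zpowers_le.2 hn ha
  replace hb := zpowers_le.2 hn hb
  replace ob := Nat.coprime_two_right.1 ob
  have aT := mem_syl Nat.prime_two hT (l ha.1.1) ha.2 hk
  have bN : b ∈ N := mem_of_cop ⟨le_sup_left, l.trans hN.2⟩ hb.1.1 (by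
    rw [relIndex_sup_of_norm (hT.le.trans hN.2)]
    exact (cop_two hT.pgrp ob).coprime_dvd_right (relIndex_dvd_card _ _))
  have key : T1 ⊓ 𝐂[c * (a * b)] = T1 ⊓ 𝐂[b] := by
    ext t
    refine and_congr_right fun ht => ?_
    have := mem_cent.1 (mul_mem hc.2 (cent_anti le (tc aT))) _ ((mem_normalizer_iff.1 hb.1.2 t).1 ht)
    change t ∈ 𝐂[c * (a * b)] ↔ t ∈ 𝐂[b]
    rw [mem_cent1_comm, mem_cent1_comm (g := t), mem_cent1_iff_conj, mem_cent1_iff_conj,
      show c * (a * b) * t * (c * (a * b))⁻¹ = c * a * (b * t * b⁻¹) * (c * a)⁻¹ by group, ← this,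
      mul_inv_cancel_right]
  refine h T hT b ⟨hN.1 bN, hb.2⟩ ob (fun f => dc (cent_comm.1 (le_trans ?_ (cent_zpowers _).ge)
    (mem_zpowers _))) y (hN.1 hy) oy (Dvd.dvd.trans ?_ (e.trans (relIndex_dvd_of_normal hN _)))
  · exact (le_inf le_rfl (le.trans (mem_cent_iff_cent1.1 f))).trans (key.ge.trans inf_le_right)
  have c1 := H1.commutator_sup_centralizer (zpowers_le.2 hb.2)
    (by rw [Nat.card_zpowers]; exact cop_two hT.pgrp ob) (.inl inferInstance)
  have c2 : ⁅T, zpowers b⁆ ≤ T1 := e1 ▸ le_inf (comm_le_left_iff.2 (zpowers_le.2 hb.2))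
    ((commutator_mono le_rfl (zpowers_le.2 bN)).trans (comm_le_right_iff.2 (hT.le.trans hN.2)))
  rw [cent_zpowers] at c1
  have c3 : T ⊓ 𝐂[b] ⊔ T1 = T := le_antisymm (sup_le inf_le_left le)
    (c1.ge.trans (sup_le (c2.trans le_sup_right) le_sup_left))
  rw [← inf_relIndex_left, ← inf_relIndex_left T1, key, ← congrArg (relIndex (T ⊓ 𝐂[b])) c3,
    relIndex_sup_of_norm (le.trans (tc.trans ((cent_anti inf_le_left).trans (cent_le_norm _)))),
    inf_relIndex_left, ← inf_relIndex_left T1, ← inf_assoc, inf_eq_left.2 le, inf_relIndex_left]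

theorem comap_cent1 {Y : Type u} [Group Y] {f : G →* Y} (hf : Function.Injective f) (d : G) :
    𝐂[f d].comap f = 𝐂[d] := by
  ext x
  rw [mem_comap, mem_cent1, mem_cent1, ← map_mul, ← map_mul, hf.eq_iff]

theorem PP.top {H : Subgroup G} (h : PP H) : PP (⊤ : Subgroup H) := by
  intro T hT d hd od dc y _ oy e
  have hf := H.subtype_injective
  have e1 : (⊤ : Subgroup H).map H.subtype = H := by rw [← MonoidHom.range_eq_map, range_subtype]
  refine h (T.map H.subtype) (by simpa only [e1] using (isSyl_map_iff hf).2 hT) d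
    ⟨d.2, le_normalizer_map _ (mem_map_of_mem _ hd.2)⟩ (by rwa [orderOf_coe])
    (fun f => dc (mem_cent.2 fun t ht => hf (mem_cent.1 f _ (mem_map_of_mem _ ht)))) y y.2
    (by rwa [OP, orderOf_coe]) ?_
  rw [← comap_cent1 hf, ← comap_cent1 hf y, relIndex_comap, relIndex_comap, e1] at e
  exact e

theorem PP.quot {N : Subgroup G} [N.Normal] (hN : ∀ T, IsSyl 2 T ⊤ → N ⊓ T ≤ center G)
    (h : PP (⊤ : Subgroup G)) : PP (⊤ : Subgroup (G ⧸ N)) := by
  intro T' hT' d' hd od dc y' _ ⟨r, k, hr, r2, hk⟩ e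
  set f := QuotientGroup.mk' N
  have hf : Function.Surjective f := QuotientGroup.mk'_surjective N
  obtain ⟨T, hT0⟩ := exists_isSyl Nat.prime_two (T'.comap f)
  have hT : IsSyl 2 T ⊤ := hT0.trans Nat.prime_two le_top (by
    rw [relIndex_top_right, index_comap_of_surjective _ hf, ← relIndex_top_right]; exact hT'.ndvd)
  have e1 : T.map f = T' := by
    refine (IsSyl.eq_of_le Nat.prime_two ⟨le_top, hT.pgrp.map f, fun c => hT.ndvd ?_⟩
      (map_le_iff_le_comap.2 hT0.le) le_top hT'.pgrp).symm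
    rw [relIndex_top_right] at c ⊢
    exact c.trans (index_map_dvd T hf)
  have n1 : 𝐍(T').comap f ≤ 𝐍(T'.comap f) := le_normalizer_comap f
  have fr := hT0.frattini Nat.prime_two ⟨comap_mono (le_norm_self _), n1⟩
  obtain ⟨d, rfl⟩ := hf d'
  obtain ⟨c, hc, n, hn, rfl⟩ := (mem_sup_of_norm (inf_le_left.trans n1)).1
    (fr.ge (mem_comap.2 hd.2))
  rw [← e1, comap_map_eq, sup_comm, mem_sup_of_norm (le_top.trans (normalizer_eq_top _).ge)] at hc
  obtain ⟨κ, hκ, t, ht, rfl⟩ := hc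
  obtain ⟨a, b, ha, hb, e2, -, ⟨j, hj⟩, ob⟩ := H8.exists_pPart_pPrimePart Nat.prime_two (t * n)
  have e3 : f (κ * t * n) = f (t * n) := by rw [mul_assoc, map_mul, MonoidHom.mem_ker.1 hκ, one_mul]
  have e4 : f (κ * t * n) = f b := by
    have a1 : f a = 1 := orderOf_eq_one_iff.1 (Nat.eq_one_of_dvd_coprimes
      ((Nat.coprime_two_right.2 od).pow_right j)
      (e3 ▸ orderOf_dvd_of_mem_zpowers (MonoidHom.map_zpowers f _ ▸ mem_map_of_mem f ha))
      (hj ▸ orderOf_map_dvd f a))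
    rw [e3, e2, map_mul, a1, one_mul]
  rw [e4] at dc e
  replace hb := zpowers_le.2 (mul_mem (le_norm_self T ht) hn.2) hb
  obtain ⟨y, ⟨i, hi⟩, rfl⟩ := H9.exists_pElement_map_eq hf hr hk
  refine h T hT b ⟨mem_top b, hb⟩ (Nat.coprime_two_right.1 ob) (fun c => dc ?_) y (mem_top y)
    ⟨r, i, hr, r2, hi⟩ ?_
  · rw [← e1, mem_cent]
    rintro _ ⟨s, hs, rfl⟩
    rw [← map_mul, ← map_mul, mem_cent.1 c s hs]
  have e5 : T ⊓ 𝐂[f b].comap f = T ⊓ 𝐂[b] := by
    ext s
    refine and_congr_right fun hs => ⟨fun c => mem_cent1_iff_commute.2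
      (H8.commute_of_commutator_mem_center (hN T hT ⟨?_, T.mul_mem
        ((mem_normalizer_iff.1 hb s).1 hs) (T.inv_mem hs)⟩) ((cop_two hT.pgrp
          (Nat.coprime_two_right.1 ob)).coprime_dvd_right (orderOf_dvd_card_of_mem hs))),
      fun c => ?_⟩
    · change _ ∈ N
      rw [← QuotientGroup.ker_mk' N, MonoidHom.mem_ker, map_mul, map_mul, map_mul, mem_cent1.1 c,
        map_inv, map_inv, mul_inv_cancel_right, mul_inv_cancel]
    · change f s ∈ 𝐂[f b]
      rw [mem_cent1, ← map_mul, ← map_mul, mem_cent1.1 c]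
  rw [← e1, ← relIndex_comap, ← inf_relIndex_left, e5, inf_relIndex_left, relIndex_top_right] at e
  rw [relIndex_top_right]
  exact e.trans (H9.index_centralizer_map_dvd hf y)

theorem Ab.sub (h : Ab G) (H : Subgroup G) : Ab H := fun _ hP =>
  (isMulComm_map_iff H.subtype_injective).1 (h _ (hP.map _))

theorem Ab.quot (h : Ab G) (N : Subgroup G) [N.Normal] : Ab (G ⧸ N) := fun P hP => by
  refine isMulComm_iff_le_cent.2 ?_
  have hf := QuotientGroup.mk'_surjective N
  obtain ⟨T, hT⟩ := exists_isSyl Nat.prime_two (P.comap (QuotientGroup.mk' N))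
  have e : P = T.map (QuotientGroup.mk' N) := by
    refine IsSyl.eq_of_le (M := P) Nat.prime_two ⟨map_le_iff_le_comap.2 hT.le, hT.pgrp.map _,
      fun c => hT.ndvd (c.trans ?_)⟩ (map_le_iff_le_comap.2 hT.le) le_rfl hP
    nth_rw 1 [← map_comap_eq_self_of_surjective hf P]
    rw [← relIndex_comap]
    exact relIndex_dvd_of_le_left _ (le_comap_map _ _)
  rw [e]
  rintro _ ⟨a, ha, rfl⟩
  rw [mem_cent]
  rintro _ ⟨b, hb, rfl⟩
  rw [← map_mul, ← map_mul, mem_cent.1 (isMulComm_iff_le_cent.1 (h T hT.pgrp) ha) b hb]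

theorem solv (n : ℕ) : ∀ (X : Type u) [Group X] [Finite X], Nat.card X = n → Ab X →
    PP (⊤ : Subgroup X) → Group.IsSolvable X := by
  induction n using Nat.strong_induction_on with
  | _ n ih =>
  intro X _ _ hn ab pp
  by_contra ns
  have sub : ∀ N : Subgroup X, N.Normal → N ≠ ⊤ → Group.IsSolvable N := fun N h1 h2 =>
    ih _ (hn ▸ card_top (G := X) ▸ H1.card_lt_of_lt h2.lt_top) N rfl (ab.sub N)
      (pp.of_normal ab ⟨le_top, normal_iff_top_le.1 h1⟩).top
  obtain ⟨T, hT⟩ := exists_isSyl Nat.prime_two (⊤ : Subgroup X)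
  have tc := isMulComm_iff_le_cent.1 (ab T hT.pgrp)
  have hs : IsSimpleGroup X := by
    have : Nontrivial X := not_subsingleton_iff_nontrivial.1 fun _ => ns inferInstance
    refine ⟨fun N h1 => by_contra fun c => ?_⟩
    have := sub N h1 fun e => c (.inr e)
    obtain ⟨M, p, h2, h3, hp, h4⟩ := L.exists_isMinNormal_isElementaryAbelian_le N
      fun e => c (.inl e)
    have := h2.1
    have h5 := L.IsElementaryAbelian.isPGroup h4
    refine ns (L.isSolvable_of_normal_of_quotient M (isSolvable_of_isNilpotent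
      (isNilpotent_of_isPGroup hp h5)) (ih _ ?_ _ rfl (ab.quot M) (pp.quot fun S hS => ?_)))
    · rw [← hn, ← M.card_mul_index]
      exact lt_mul_of_one_lt_left (Nat.pos_of_ne_zero M.index_ne_zero_of_finite)
        ((one_lt_card_iff_ne_bot M).2 h2.2.1)
    by_cases p2 : p = 2
    · subst p2
      have h6 : T ≤ 𝐂(M) := tc.trans (cent_anti (hT.le_of_le_norm Nat.prime_two h5 le_top
        (le_top.trans (normalizer_eq_top M).ge)))
      refine inf_le_left.trans (centralizer_eq_top_iff_subset.1 (by_contra fun c' => ns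
        (L.isSolvable_of_normal_of_quotient _ (sub _ inferInstance c') (feit_thompson _ ?_))))
      rw [← Nat.not_even_iff_odd, even_iff_two_dvd]
      exact fun e => hT.ndvd (e.trans (by rw [relIndex_top_right]; exact index_dvd_of_le h6))
    · have := Fact.mk hp
      have := Fact.mk Nat.prime_two
      exact (disjoint_iff.1 (IsPGroup.disjoint_of_ne p 2 p2 _ _ h5 hS.pgrp)).le.trans bot_le
  obtain ⟨y, y1, y2⟩ := odd_cent hs (L.not_isMulCommutative_of_not_isSolvable ns) ab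
  have ev : 2 ∣ Nat.card X := (Nat.not_odd_iff_even.1 fun e => ns (feit_thompson X e)).two_dvd
  obtain ⟨P, rfl⟩ := hT.exists_sylow_top Nat.prime_two
  have := Fact.mk Nat.prime_two
  refine H5.not_hasNPC_top ns Nat.prime_two ev ((hasNPC_iff Nat.prime_two).2
    (H8.hasNPC_top_iff.2 (H8.hasNPC_of_normalizer_le_centralizer P fun g hg => ?_)))
  obtain ⟨a, b, ha, hb, e, -, ⟨j, hj⟩, ob⟩ := H8.exists_pPart_pPrimePart Nat.prime_two g
  rw [e]
  refine mul_mem (tc (mem_syl Nat.prime_two hT (mem_top a) (zpowers_le.2 hg ha) hj))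
    (by_contra fun c => pp P hT b ⟨mem_top b, zpowers_le.2 hg hb⟩ (Nat.coprime_two_right.1 ob) c y
      (mem_top y) ⟨_, 1, y1, fun e => ?_, (pow_one _).symm⟩ ((relIndex_dvd_card _ _).trans ?_))
  · exact Nat.not_even_iff_odd.2 y2 (even_iff_two_dvd.2
      (e ▸ orderOf_dvd_card_of_mem (self_mem_cent1 y)))
  · rw [relIndex_top_right]
    refine (cop_two hT.pgrp y2).symm.dvd_of_dvd_mul_left ?_
    rw [card_mul_index]
    exact card_subgroup_dvd_card _

end Cfsg.Agent.P26
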