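/-
P26, part C: primary elements with class size 1 or m.
-/
import Cfsg.Agent.P26.B
import Cfsg.Agent.H7.SC1

set_option autoImplicit false
set_option linter.unusedSectionVars false

namespace Cfsg.Agent.P26

open Subgroup Cfsg Cfsg.Agent Cfsg.Agent.FT
open scoped commutatorElement

universe u

variable {G : Type u} [Group G] [Finite G]

/-- Elements of prime power order. -/
def Pr (x : G) : Prop := ∃ r k : ℕ, r.Prime ∧ orderOf x = r ^ k

theorem pr_of_mem {p : ℕ} (hp : p.Prime) {P : Subgroup G} (hP : IsPGroup p P) {x : G}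
    (hx : x ∈ P) : Pr x := by
  obtain ⟨k, hk⟩ := exists_card_eq_pow hp hP
  obtain ⟨j, -, hj⟩ := (Nat.dvd_prime_pow hp).1 (hk ▸ orderOf_dvd_card_of_mem hx)
  exact ⟨p, j, hp, hj⟩

theorem not_mul_dvd {p : ℕ} {T : Subgroup G} (hT : IsSyl p T ⊤) (K : Subgroup G) :
    ¬ p * K.relIndex T ∣ K.index := fun h => hT.ndvd (by
  have h1 := H1.card_mul_relIndex (inf_le_left : T ⊓ K ≤ T)
  rw [inf_relIndex_left] at h1
  have h2 := Nat.mul_dvd_mul h (FT.card_dvd_of_le (inf_le_right : T ⊓ K ≤ K))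
  rw [index_mul_card, mul_assoc, mul_comm (K.relIndex T), h1, ← T.index_mul_card] at h2
  rw [relIndex_top_right]
  exact Nat.dvd_of_mul_dvd_mul_right Nat.card_pos h2)

theorem cz {a b : G} : a * b * a⁻¹ * b⁻¹ ∈ center G ↔
    (a : G ⧸ center G) * (b : G ⧸ center G) = b * a := by
  rw [← QuotientGroup.eq_one_iff]
  simp only [QuotientGroup.mk_mul, QuotientGroup.mk_inv]
  exact commutatorElement_eq_one_iff_mul_comm

theorem sq_mem {a b : G} (h : a * b * a⁻¹ * b⁻¹ ∈ center G) (hb : b * b ∈ center G) :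
    a * a ∈ 𝐂[b] := by
  have h1 := mem_center_iff.1 h
  have h2 : a * b * a⁻¹ = a * b * a⁻¹ * b⁻¹ * b := by group
  generalize a * b * a⁻¹ * b⁻¹ = z at h1 h2
  have h3 : z * z = 1 := by
    have : a * b * a⁻¹ * (a * b * a⁻¹) = b * b := by
      rw [conj_mul, mem_center_iff.1 hb a, mul_inv_cancel_right]
    rw [h2, mul_assoc, ← mul_assoc b, h1 b, mul_assoc, ← mul_assoc] at this
    exact mul_eq_right.1 this
  rw [mem_cent1_iff_conj]
  calc _ = a * (a * b * a⁻¹) * a⁻¹ := by group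
    _ = z * (a * b * a⁻¹) := by rw [h2, ← mul_assoc, h1 a, ← h2]; group
    _ = b := by rw [h2, ← mul_assoc, h3, one_mul]

theorem syl_of_card {p : ℕ} {P K L : Subgroup G} (h : IsSyl p P K) (hL : P ≤ L)
    (e : L.index = K.index) : IsSyl p P L := ⟨hL, h.pgrp, fun c => h.ndvd (by
  have h1 := relIndex_mul_index hL
  rw [e, ← relIndex_mul_index h.le] at h1
  rwa [← Nat.eq_of_mul_eq_mul_right (Nat.pos_of_ne_zero K.index_ne_zero_of_finite) h1])⟩

section
variable {m : ℕ} (h : ∀ x : G, Pr x → x ∈ center G ∨ 𝐂[x].index = m)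
include h

theorem dvd_m {x : G} (hx : Pr x) : 𝐂[x].index ∣ m :=
  (h x hx).elim (fun e => H9.index_centralizer_eq_one_iff.2 e ▸ one_dvd _) fun e => e.dvd

theorem cent_eq {x y : G} (hx : Pr x) (hy : Pr y) (y1 : y ∉ center G) (le : 𝐂[x] ≤ 𝐂[y]) :
    𝐂[x] = 𝐂[y] := by
  have h1 := relIndex_mul_index le
  have h2 := dvd_m h hx
  rw [← h1, (h y hy).resolve_left y1] at h2
  have h3 : m ≠ 0 := (h y hy).resolve_left y1 ▸ index_ne_zero_of_finite
  exact le_antisymm le (relIndex_eq_one.1 (Nat.dvd_one.1 (Nat.dvd_of_mul_dvd_mul_right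
    (Nat.pos_of_ne_zero h3) (by rwa [one_mul]))))

/-- The case where all squares of 2-elements are central. -/
theorem caseE (sq : ∀ T : Subgroup G, IsPGroup 2 T → ∀ w ∈ T, w * w ∈ center G) :
    Group.IsSolvable G := by
  have pp : PP (⊤ : Subgroup G) := by
    intro T hT d hd od dc y _ ⟨r, k, hr, _, hk⟩ e
    have cop : ∀ t ∈ T, (orderOf d).Coprime (orderOf t) := fun t ht =>
      (cop_two hT.pgrp od).coprime_dvd_right (orderOf_dvd_card_of_mem ht)
    obtain ⟨t, ht, x1⟩ : ∃ t ∈ T, d * t * d⁻¹ * t⁻¹ ∉ center G := by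
      by_contra! c
      exact dc (mem_cent.2 fun t ht =>
        (H8.commute_of_commutator_mem_center (c t ht) (cop t ht)).symm)
    have dt := (mem_normalizer_iff.1 hd.2 t).1 ht
    have xT : d * t * d⁻¹ * t⁻¹ ∈ T := mul_mem dt (inv_mem ht)
    have l : T ⊓ 𝐂[d] ≤ T ⊓ 𝐂[d * t * d⁻¹ * t⁻¹] := fun c hc => ⟨hc.1, by
      have z1 : t⁻¹ * c * t * c⁻¹ ∈ center G := by
        have := mul_mem (mul_mem (sq T hT.pgrp _ (mul_mem (inv_mem ht) hc.1))
          ((inferInstance : (center G).Normal).conj_mem _ (sq T hT.pgrp _ ht) c⁻¹))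
          (inv_mem (sq T hT.pgrp _ hc.1))
        convert this using 1; group
      have z2 := mem_center_iff.1 z1
      have z3 : t⁻¹ * c * t = t⁻¹ * c * t * c⁻¹ * c := by group
      generalize t⁻¹ * c * t * c⁻¹ = z at z2 z3
      have z4 := mem_cent1.1 hc.2
      refine mem_cent1_comm.1 (mem_cent1_iff_conj.2 ?_)
      have z5 : t * (z * c) * t⁻¹ = c := by rw [← z3]; group
      calc _ = d * t * (d⁻¹ * (t⁻¹ * c * t) * d) * t⁻¹ * d⁻¹ := by group
        _ = d * (t * (z * c) * t⁻¹) * d⁻¹ := by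
          rw [z3, ← mul_assoc d⁻¹, z2 d⁻¹, mul_assoc (z * d⁻¹), ← z4]; group
        _ = c := by rw [z5, z4, mul_inv_cancel_right]⟩
    have nd : d * t * d⁻¹ * t⁻¹ ∉ 𝐂[d] := fun c => by
      have h1 : ∀ n : ℕ, d ^ n * t * (d ^ n)⁻¹ = (d * t * d⁻¹ * t⁻¹) ^ n * t := fun n => by
        induction n with
        | zero => simp
        | succ n ih =>
          calc _ = d * (d ^ n * t * (d ^ n)⁻¹) * d⁻¹ := by rw [pow_succ']; group
            _ = _ := by
              rw [ih, ← mul_assoc, mem_cent1.1 (pow_mem c n), pow_succ]; group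
      have h2 := h1 (orderOf d)
      rw [pow_orderOf_eq_one, one_mul, inv_one, mul_one, eq_comm, mul_eq_right] at h2
      exact x1 (orderOf_eq_one_iff.1 (Nat.eq_one_of_dvd_coprimes (cop _ xT)
        (orderOf_dvd_of_pow_eq_one h2) dvd_rfl) ▸ one_mem _)
    generalize d * t * d⁻¹ * t⁻¹ = x at x1 xT l nd
    refine not_mul_dvd hT 𝐂[x] ?_
    rw [(h x (pr_of_mem Nat.prime_two hT.pgrp xT)).resolve_left x1]
    refine Dvd.dvd.trans ?_ (e.trans (relIndex_top_right (H := 𝐂[y]) ▸ dvd_m h ⟨r, k, hr, hk⟩))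
    rw [← inf_relIndex_left T 𝐂[d], ← relIndex_mul_relIndex _ _ _ l inf_le_left, inf_relIndex_left]
    refine Nat.mul_dvd_mul_right ?_ _
    obtain ⟨j, hj⟩ := exists_card_eq_pow Nat.prime_two (hT.pgrp.to_inf_left (K := 𝐂[x]))
    obtain ⟨i, -, hi⟩ := (Nat.dvd_prime_pow Nat.prime_two).1 (hj ▸ relIndex_dvd_card (T ⊓ 𝐂[d]) _)
    rw [hi]
    refine dvd_pow_self 2 ?_
    rintro rfl
    exact nd (relIndex_eq_one.1 hi ⟨xT, self_mem_cent1 x⟩).2
  refine L.isSolvable_of_normal_of_quotient (center G) (H1.isSolvable_of_isMulCommutative inferInstance)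
    (solv _ _ rfl (fun P hP => ?_) (pp.quot fun _ _ => inf_le_left))
  have s : ∀ a ∈ P, a * a = 1 := fun a ha => by
    obtain ⟨_, k, -, hk⟩ : ∃ r k : ℕ, r = 2 ∧ orderOf a = 2 ^ k := by
      obtain ⟨k, hk⟩ := exists_card_eq_pow Nat.prime_two hP
      obtain ⟨j, -, hj⟩ := (Nat.dvd_prime_pow Nat.prime_two).1 (hk ▸ orderOf_dvd_card_of_mem ha)
      exact ⟨2, j, rfl, hj⟩
    obtain ⟨b, ⟨i, hi⟩, rfl⟩ := H9.exists_pElement_map_eq (QuotientGroup.mk'_surjective _)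
      Nat.prime_two hk
    rw [← map_mul]
    exact (QuotientGroup.eq_one_iff _).2
      (sq _ (H8.isPGroup_zpowers_of_orderOf hi) b (mem_zpowers b))
  refine isMulComm_iff_le_cent.2 fun a ha => mem_cent.2 fun b hb => ?_
  rw [← inv_eq_of_mul_eq_one_right (s _ (mul_mem hb ha)), mul_inv_rev,
    inv_eq_of_mul_eq_one_right (s a ha), inv_eq_of_mul_eq_one_right (s b hb)]

omit h in
theorem cent_mul {z a : G} (hz : z ∈ center G) : 𝐂[z * a] = 𝐂[a] := by
  ext g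
  rw [mem_cent1, mem_cent1, ← mul_assoc, mem_center_iff.1 hz g, mul_assoc, mul_assoc,
    mul_right_inj]

omit h in
theorem nrm (t : G) : 𝐂[t] ⊲ 𝐂[(t : G ⧸ center G)].comap (QuotientGroup.mk' (center G)) := by
  refine ⟨fun g hg => mem_cent1.2 ?_, fun g hg => conj_eq_self_iff.1 ?_⟩
  · exact congrArg (QuotientGroup.mk' (center G)) (mem_cent1.1 hg)
  · rw [← cent1_conj, ← cent_mul (a := t) (cz.2 (mem_cent1.1 hg).symm), inv_mul_cancel_right]

omit h in
theorem dd {t a b : G} (tt : t * t ∈ center G) (n4 : ¬ 4 ∣ 𝐂[t].index)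
    (ha : a * t * a⁻¹ * t⁻¹ ∈ center G) (hb : b * t * b⁻¹ * t⁻¹ ∈ center G) (a1 : a ∉ 𝐂[t])
    (b1 : b ∉ 𝐂[t]) : a * b ∈ 𝐂[t] := by
  have hn := nrm t
  have ha' : a ∈ 𝐂[(t : G ⧸ center G)].comap (QuotientGroup.mk' (center G)) :=
    mem_cent1.2 (cz.1 ha).symm
  have hb' : b ∈ 𝐂[(t : G ⧸ center G)].comap (QuotientGroup.mk' (center G)) :=
    mem_cent1.2 (cz.1 hb).symm
  have hs : ∀ g ∈ 𝐂[(t : G ⧸ center G)].comap (QuotientGroup.mk' (center G)), g * g ∈ 𝐂[t] :=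
    fun g hg => sq_mem (cz.2 (mem_cent1.1 hg).symm) tt
  generalize 𝐂[(t : G ⧸ center G)].comap (QuotientGroup.mk' (center G)) = D at *
  have := H1.normal_subgroupOf_of_le hn.2
  have := Fact.mk Nat.prime_two
  have hp : IsPGroup 2 (D ⧸ 𝐂[t].subgroupOf D) := fun q => ⟨1, by
    obtain ⟨g, rfl⟩ := QuotientGroup.mk_surjective q
    rw [pow_one, pow_two]
    exact (QuotientGroup.eq_one_iff (g * g)).2 (hs g g.2)⟩
  obtain ⟨j, hj⟩ := hp.exists_card_eq
  change 𝐂[t].relIndex D = _ at hj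
  have h2 : (𝐂[t].subgroupOf D).index = 2 := by
    change 𝐂[t].relIndex D = _
    rcases j with _ | _ | j
    · exact absurd (relIndex_eq_one.1 hj ha') a1
    · exact hj
    · exact absurd (Dvd.dvd.trans ⟨2 ^ j, by rw [hj]; ring⟩ (relIndex_dvd_index_of_le hn.1)) n4
  exact (mul_mem_iff_of_index_two h2 (a := ⟨a, ha'⟩) (b := ⟨b, hb'⟩)).2 (iff_of_false a1 b1)

/-- No odd prime divides `m`. -/
theorem not_dvd {x : G} {B : Subgroup G} (hx : 𝐂[x].index = m) (hB : IsSyl 2 B 𝐂[x])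
    (hc : B ≤ 𝐂(𝐂[x])) (hn : ∀ g ∈ 𝐍(B), g * g ∈ 𝐂[x]) {p : ℕ} (hp : p.Prime) (p2 : p ≠ 2) :
    ¬ p ∣ m := by
  obtain ⟨P, hP⟩ := exists_isSyl hp 𝐂[x]
  have c1 : ∀ Q : Subgroup G, IsPGroup p Q → ∀ u ∈ Q, u ∈ 𝐂(P) → u ∈ P := fun Q hQ u hu hc => by
    have h1 : IsPGroup p (zpowers u) := hQ.to_le (zpowers_le.2 hu)
    have h2 : zpowers u ≤ 𝐍(P) := zpowers_le.2 (cent_le_norm P hc)
    rcases h u (pr_of_mem hp hQ hu) with e | e
    · exact hP.le_of_norm hp h1 (zpowers_le.2 (mem_cent1.2 (mem_center_iff.1 e x))) h2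
        (mem_zpowers u)
    · exact (syl_of_card hP (mem_cent_iff_cent1.1 hc) (e.trans hx.symm)).le_of_norm hp h1
        (zpowers_le.2 (self_mem_cent1 u)) h2 (mem_zpowers u)
  suffices s : IsSyl p P ⊤ from fun c => s.ndvd (by
    rw [relIndex_top_right]; exact (hx ▸ c).trans (index_dvd_of_le hP.le))
  by_cases e : P ≤ center G
  · exact isSyl_of_maximal hp le_top hP.pgrp fun Q h1 _ h2 => le_antisymm
      (fun u hu => c1 Q h2 u hu (mem_cent.2 fun a ha => (mem_center_iff.1 (e ha) u).symm)) h1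
  obtain ⟨y, hy, y1⟩ := SetLike.not_le_iff_exists.1 e
  have BC : B ≤ 𝐂(P) := hc.trans (cent_anti hP.le)
  have nC : 𝐍(P) ≤ 𝐍(𝐂(P)) := H1.normalizer_le_normalizer_centralizer P
  have fr := ((syl_of_card hB (BC.trans (cent_le_cent1 hy))
    (((h y (pr_of_mem hp hP.pgrp hy)).resolve_left y1).trans hx.symm)).of_le BC
      (cent_le_cent1 hy)).frattini Nat.prime_two ⟨cent_le_norm P, nC⟩
  have s1 : IsSyl p P (𝐂(P) ⊔ P) := isSyl_of_maximal hp le_sup_right hP.pgrp fun Q h1 h2 h3 =>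
    le_antisymm (fun q hq => by
      obtain ⟨c, hc, u, hu, rfl⟩ := (mem_sup_of_norm ((le_norm_self P).trans nC)).1 (h2 hq)
      exact mul_mem (c1 Q h3 c ((mul_mem_cancel_right (h1 hu)).1 hq) hc) hu) h1
  have n1 : 𝐍(P) ⊓ 𝐂[x] ≤ 𝐍(𝐂(P) ⊔ P) := H1.le_normalizer_sup (inf_le_left.trans nC) inf_le_left
  have s2 : IsSyl p P (𝐂(P) ⊔ P ⊔ 𝐍(P) ⊓ 𝐂[x]) := s1.trans hp le_sup_left fun c => by
    rw [relIndex_sup_of_norm n1] at c
    exact (hP.of_le (le_inf (le_norm_self P) hP.le) inf_le_right).ndvd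
      (c.trans (relIndex_dvd_of_le_left _ le_sup_right))
  refine IsSyl.of_norm hp (isSyl_of_maximal hp (le_inf le_top (le_norm_self P)) hP.pgrp
    fun Q h1 h2 h3 => s2.eq_of_le hp h1 (fun g hg => ?_) h3)
  obtain ⟨c, hc, n, hn', rfl⟩ := (mem_sup_of_norm (inf_le_left.trans nC)).1 (fr.ge (h2 hg).2)
  refine H8.mem_of_pow_mem_of_coprime (n := 2) ?_ ?_
  · obtain ⟨k, hk⟩ := exists_card_eq_pow hp h3
    exact (((Nat.coprime_primes hp Nat.prime_two).2 p2).pow_left k).coprime_dvd_left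
      (hk ▸ orderOf_dvd_card_of_mem hg)
  · rw [show (c * n) ^ 2 = c * (n * c * n⁻¹) * (n * n) by rw [pow_two]; group]
    exact mul_mem (mem_sup_left (mem_sup_left (mul_mem hc
      ((mem_normalizer_iff.1 (nC hn'.1) c).1 hc))))
      (mem_sup_right ⟨mul_mem hn'.1 hn'.1, hn n hn'.2⟩)

/-- The case of a 2-element with non-central square. -/
theorem caseN {T : Subgroup G} (hT : IsSyl 2 T ⊤) {w : G} (hw : w ∈ T) (w2 : w * w ∉ center G) :
    Group.IsSolvable G := by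
  have pr : ∀ {t}, t ∈ T → Pr t := pr_of_mem Nat.prime_two hT.pgrp
  set f := QuotientGroup.mk' (center G)
  have mz : ∀ {g : G}, g ∈ center G ↔ f g = 1 := (QuotientGroup.eq_one_iff _).symm
  obtain ⟨x, xT, x1, xx, xc⟩ : ∃ x ∈ T, x ∉ center G ∧ x * x ∈ center G ∧
      ∀ t ∈ T, t * x * t⁻¹ * x⁻¹ ∈ center G := by
    obtain ⟨⟨z, hz⟩, z1⟩ := ne_bot_iff_exists_ne_one.1 (H7.SC.oz_ne_bot (hT.pgrp.map f)
      fun e => w2 (mz.2 (e.le (mem_map_of_mem f (mul_mem hw hw)))))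
    obtain ⟨x, xT, rfl⟩ := H7.SC.oz_le _ hz
    refine ⟨x, xT, fun e => z1 (Subtype.ext (mz.1 e)), mz.2 ?_, fun t ht => cz.2
      (mem_cent.1 (H7.SC.le_cent_oz _ (mem_map_of_mem f ht)) _ hz).symm⟩
    rw [map_mul, ← pow_two]
    exact (H7.SC.elemAb_oz _).2 _ hz
  have hx := (h x (pr xT)).resolve_left x1
  have sq : ∀ {s}, s ∈ T → s * s ∉ center G → 𝐂[s] = 𝐂[s * s] := fun {s} hs s2 =>
    cent_eq h (pr hs) (pr (mul_mem hs hs)) s2 (pow_two s ▸ cent1_le_cent1_pow s 2)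
  have dv : ∀ {a b : G}, 𝐂[a * b] ⊓ 𝐂[b] ≤ 𝐂[a] := fun {a b} g hg => mem_cent1_comm.1
    ((mul_mem_cancel_right (mem_cent1_comm.1 hg.2)).1 (mem_cent1_comm.1 hg.1))
  have ms : ∀ {a b : G}, a ∈ 𝐂[b] → a * b * (a * b) = a * a * (b * b) := fun {a b} e => by
    rw [mul_assoc, ← mul_assoc b, mem_cent1.1 e]; group
  have a1 : ∀ {s}, s ∈ T → s * s ∉ center G → 𝐂[s] = 𝐂[x] := fun {s} hs s2 => by
    have e := ms ((sq hs s2).ge (mem_cent1_comm.1 (sq_mem (xc s hs) xx)))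
    refine cent_eq h (pr hs) (pr xT) x1 (le_trans (le_inf ?_ le_rfl) dv)
    rw [sq (mul_mem xT hs) (by rwa [e, mul_mem_cancel_left xx]), e, cent_mul xx, sq hs s2]
  have a2 : ∀ {b}, b ∈ T ⊓ 𝐂[x] → b ∉ center G → 𝐂[x] = 𝐂[b] := fun {b} hb b1 => by
    by_cases e : b * b ∈ center G
    · refine cent_eq h (pr xT) (pr hb.1) b1 (le_trans (le_inf (a1 (mul_mem hb.1 hw) ?_).ge
        (a1 hw w2).ge) dv)
      rwa [ms ((a1 hw w2).ge hb.2), mul_mem_cancel_left e]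
    · exact (a1 hb.1 e).symm
  have a3 : T ⊓ 𝐂[x] ≤ 𝐂(𝐂[x]) := fun b hb => by
    by_cases e : b ∈ center G
    · exact mem_cent.2 fun g _ => mem_center_iff.1 e g
    · exact mem_cent_iff_cent1.2 (a2 hb e).le
  have hB : IsSyl 2 (T ⊓ 𝐂[x]) 𝐂[x] := (hT.of_le (K := 𝐂[f x].comap f) (fun t ht => mem_comap.2
    (mem_cent1.2 (cz.1 (xc t ht)).symm)) le_top).inf_normal Nat.prime_two (nrm x)
  by_cases e : T ≤ 𝐂[x]
  · refine solv _ _ rfl (fun P hP => ?_) fun S hS d hd _ dc y _ ⟨r, k, hr, _, hk⟩ c => dc ?_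
    · obtain ⟨g, -, hg⟩ := hT.exists_conj_le Nat.prime_two hP le_top
      exact (isMulComm_map_iff (conj_injective g)).1 (isMulComm_of_le hg (isMulComm_iff_le_cent.2
        ((le_inf le_rfl e).trans (a3.trans (cent_anti e)))))
    · have o : Odd m := Nat.not_even_iff_odd.1 fun c => hT.ndvd (by
        rw [relIndex_top_right]; exact (hx ▸ c.two_dvd).trans (index_dvd_of_le e))
      rw [relIndex_top_right] at c
      exact mem_cent_iff_cent1.2 (relIndex_eq_one.1 (Nat.eq_one_of_dvd_coprimes (cop_two hS.pgrp o)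
        (c.trans (dvd_m h ⟨r, k, hr, hk⟩)) (relIndex_dvd_card _ _)))
  obtain ⟨t, ht, t1⟩ := SetLike.not_le_iff_exists.1 e
  have s2 : ∀ {s}, s ∈ T → s ∉ 𝐂[x] → s * s ∈ center G := fun {s} hs s1 =>
    by_contra fun c => s1 ((a1 hs c).le (self_mem_cent1 s))
  have iv : ∀ {s}, s ∈ T → s ∉ 𝐂[x] → ∀ {b}, b ∈ T ⊓ 𝐂[x] → f s * f b = (f b)⁻¹ * f s :=
    fun {s} hs s1 {b} hb => by
    have h1 := mz.1 (s2 hs s1)
    have h2 := mz.1 (s2 (mul_mem hs hb.1) (by rwa [mul_mem_cancel_right (mem_inf.1 hb).2]))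
    simp only [map_mul] at h1 h2
    rw [← inv_eq_of_mul_eq_one_right h2, mul_inv_rev, inv_eq_of_mul_eq_one_right h1]
  have wB : w ∈ T ⊓ 𝐂[x] := ⟨hw, (a1 hw w2).le (self_mem_cent1 w)⟩
  have i2 : 𝐂[x].relIndex T = 2 := relIndex_eq_two_iff_exists_notMem_and.2 ⟨t, ht, t1,
    fun s hs => by_contra fun c => w2 (mz.2 (by
      rw [not_or] at c
      have h1 := iv (mul_mem hs ht) c.1 wB
      rw [map_mul, mul_assoc, iv ht t1 wB, ← mul_assoc, ← map_inv, iv hs c.2 (inv_mem wB), map_inv,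
        inv_inv, mul_assoc, mul_left_inj] at h1
      rw [map_mul]
      exact mul_eq_one_iff_eq_inv.2 h1))⟩
  have n4 : ¬ 4 ∣ m := by
    have := not_mul_dvd hT 𝐂[x]
    rwa [i2, hx] at this
  have tz : t ∉ center G := fun c => t1 (mem_cent1.2 (mem_center_iff.1 c x))
  have hn : ∀ g ∈ 𝐍(T ⊓ 𝐂[x]), g * g ∈ 𝐂[x] := fun g hg => by
    have xB : x ∈ T ⊓ 𝐂[x] := ⟨xT, self_mem_cent1 x⟩
    have b1 := (mem_normalizer_iff.1 hg x).1 xB
    have b2 : g * x * g⁻¹ ∉ center G := fun c => x1 (by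
      simpa [mul_assoc] using (inferInstance : (center G).Normal).conj_mem _ c g⁻¹)
    have b3 : g * x * g⁻¹ * (g * x * g⁻¹) ∈ center G := by
      rw [conj_mul]; exact (inferInstance : (center G).Normal).conj_mem _ xx g
    have key : ∀ {b}, b ∈ T ⊓ 𝐂[x] → b * b ∈ center G → b * t * b⁻¹ * t⁻¹ ∈ center G :=
      fun {b} hb bb => cz.2 (by
        have h1 := mz.1 bb
        rw [map_mul] at h1
        have h2 := iv ht t1 hb
        rw [inv_eq_of_mul_eq_one_right h1] at h2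
        exact h2.symm)
    have b4 := dd (s2 ht t1) (by rwa [(h t (pr ht)).resolve_left tz]) (key b1 b3) (key xB xx)
      (fun c => t1 ((a2 b1 b2).ge (mem_cent1_comm.1 c))) fun c => t1 (mem_cent1_comm.1 c)
    have b5 : g * x * g⁻¹ * x ∈ center G := by_contra fun c =>
      t1 ((a2 (mul_mem b1 xB) c).ge (mem_cent1_comm.1 b4))
    refine sq_mem ?_ xx
    convert mul_mem b5 (inv_mem xx) using 1
    group
  have m0 : m ≠ 0 := hx ▸ index_ne_zero_of_finite
  have m2 : 𝐂[x].index = 2 := by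
    have h1 := Nat.eq_prime_pow_of_unique_prime_dvd m0 (p := 2) fun {p} hp hd =>
      by_contra fun c => not_dvd h hx hB a3 hn hp c hd
    generalize m.primeFactorsList.length = j at h1
    rcases j with _ | _ | j
    · exact absurd (H9.index_centralizer_eq_one_iff.1 (hx.trans h1)) x1
    · exact hx.trans h1
    · exact absurd ⟨2 ^ j, by rw [h1]; ring⟩ n4
  have := normal_of_index_eq_two m2
  have := Fact.mk Nat.prime_two
  have := H1.normal_subgroupOf_of_le ((cent_comm.1 a3).trans (cent_le_norm _))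
  refine L.isSolvable_of_normal_of_quotient 𝐂[x] (L.isSolvable_of_normal_of_quotient
    ((T ⊓ 𝐂[x]).subgroupOf 𝐂[x]) (H1.isSolvable_subgroupOf (H1.isSolvable_of_isPGroup hB.pgrp) _)
    (feit_thompson _ (Nat.not_even_iff_odd.1 fun c => hB.ndvd c.two_dvd))) ?_
  have := (IsPGroup.of_card (p := 2) (n := 1) (G := G ⧸ 𝐂[x]) m2).isNilpotent
  infer_instance

theorem main : Group.IsSolvable G := by
  by_cases e : ∀ T : Subgroup G, IsPGroup 2 T → ∀ w ∈ T, w * w ∈ center G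
  · exact caseE h e
  push Not at e
  obtain ⟨P, hP, w, hw, w2⟩ := e
  obtain ⟨T, hT, le⟩ := exists_isSyl_ge Nat.prime_two hP le_top
  exact caseN h hT (le hw) w2

end

end Cfsg.Agent.P26
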